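import Cfsg.Agent.H705.ComPSU

/-!
# Generators of `U₃(11)` (helper733)

`exists_gen` : `U₃(11) = ⟨P, t, w⟩` with `P` of order `11 ^ 3`, `t` of order 40 normalizing `P` and `w t w⁻¹ = t ^ (-11)`.
-/

set_option autoImplicit false

namespace Cfsg.Agent.H733.JM.PsuGen

open Cfsg Cfsg.Agent.LieRecognition.RankOneAbstract Cfsg.Agent.H705 Cfsg.Agent.H705.PSU
open Cfsg.Agent.UThreeGen.MatGroup
open Cfsg.Agent.HKS.EndU (tor tmat tor_val tor_mem act tor_emb ci wel_tor exists_tor tor_mem_center sne tor_conj)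

section gen

variable {F : Type*} [Field F] [Fintype F] {q : ℕ} {σ : F →+* F} [hσ : Fact (∀ x, σ (σ x) = x)]
  {M : Type*} [Group M] {π : SUG σ →* M} (E : Mod q π)

include E

/-- generation by the unipotent group, a generator of the torus and `w` -/
theorem closure_eq_top {l₀ : Fˣ} (hl₀ : ∀ l : Fˣ, l ∈ Subgroup.zpowers l₀) :
    Subgroup.closure (((emb σ).range.map π : Set M) ∪ {π (tor σ l₀), π (wel σ)}) = ⊤ := by
  set K := Subgroup.closure (((emb σ).range.map π : Set M) ∪ {π (tor σ l₀), π (wel σ)}) with hK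
  have hU : (emb σ).range.map π ≤ K := fun x hx => Subgroup.subset_closure (Or.inl hx)
  have ht : π (tor σ l₀) ∈ K := Subgroup.subset_closure (Or.inr (Or.inl rfl))
  have hw : π (wel σ) ∈ K := Subgroup.subset_closure (Or.inr (Or.inr rfl))
  have hT : ∀ l : Fˣ, π (tor σ l) ∈ K := by
    intro l
    obtain ⟨j, rfl⟩ := Subgroup.mem_zpowers_iff.1 (hl₀ l)
    rw [map_zpow, map_zpow]
    exact K.zpow_mem ht j
  have D := E.data
  have hB : (borel σ).map π ≤ K := by
    intro b hb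
    by_cases hbw : (π (wel σ))⁻¹ * b * π (wel σ) ∈ (borel σ).map π
    · obtain ⟨l, rfl⟩ := E.mem_two_iff hb hbw
      exact hT l
    · -- `b w` lies in `U w B`
      have h1 : b * π (wel σ) ∉ (borel σ).map π := by
        intro h
        apply D.w_not_mem
        have h2 := ((borel σ).map π).mul_mem (((borel σ).map π).inv_mem hb) h
        rwa [inv_mul_cancel_left] at h2
      obtain ⟨s, hs, h2⟩ := D.bruhat _ h1
      have h3 : (π (wel σ))⁻¹ * (s⁻¹ * b) * π (wel σ) ∈ (borel σ).map π := by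
        have e : (π (wel σ))⁻¹ * (s⁻¹ * b) * π (wel σ) = (s * π (wel σ))⁻¹ * (b * π (wel σ)) := by group
        rw [e]
        exact h2
      obtain ⟨l, hl⟩ := E.mem_two_iff (((borel σ).map π).mul_mem (((borel σ).map π).inv_mem (D.le hs)) hb) h3
      have h4 : b = s * π (tor σ l) := by rw [← hl, mul_inv_cancel_left]
      rw [h4]
      exact K.mul_mem (hU hs) (hT l)
  rw [eq_top_iff]
  intro g _
  by_cases hg : g ∈ (borel σ).map π
  · exact hB hg
  · obtain ⟨s, hs, h⟩ := D.bruhat g hg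
    have e : g = s * π (wel σ) * ((s * π (wel σ))⁻¹ * g) := by group
    rw [e]
    exact K.mul_mem (K.mul_mem (hU hs) hw) (hB h)

/-- the kernel of the torus -/
theorem ker_tor_iff {l : Fˣ} : π (tor σ l) = 1 ↔ (l : F) ^ 2 = σ (l : F) := by
  constructor
  · intro h
    obtain ⟨x, hx⟩ := H212.U3.Model.exists_a E.card E.pow (σ := σ) 1
    have h1 : π (tor σ l) * π (emb σ x) * (π (tor σ l))⁻¹ = π (emb σ x) := by rw [h]; simp
    rw [tor_conj] at h1
    have h2 := congrArg HG.a (E.emb_inj h1)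
    have h3 : (l : F) ^ 2 / σ (l : F) * x.a = x.a := h2
    rw [hx, mul_one, div_eq_one_iff_eq (sne l)] at h3
    exact h3
  · intro h
    exact (E.ker _).2 (tor_mem_center h)

end gen

/-- **generators of `U₃(11)`** -/
theorem exists_gen {F : Type} [Field F] [Fintype F] (hF : Fintype.card F = 121) :
    ∃ (P : Subgroup (Cfsg.PSU 3 F 11)) (t w : Cfsg.PSU 3 F 11), Nat.card P = 11 ^ 3 ∧ orderOf t = 40 ∧
      t ∈ Subgroup.normalizer (P : Set (Cfsg.PSU 3 F 11)) ∧ w * t * w⁻¹ = t ^ (-11 : ℤ) ∧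
      Subgroup.closure ((P : Set (Cfsg.PSU 3 F 11)) ∪ {t, w}) = ⊤ := by
  have hF' : Fintype.card F = 11 ^ 2 := by rw [hF]; norm_num
  obtain ⟨σ, hσ, π, E⟩ := PSU.exists_mod F hF' (by norm_num)
  obtain ⟨l₀, hl₀, hord, -⟩ := E.exists_generator (by norm_num)
  have hord' : orderOf l₀ = 120 := hord
  refine ⟨(emb σ).range.map π, π (tor σ l₀), π (wel σ), E.card_unip, ?_, ?_, ?_, closure_eq_top E hl₀⟩
  · -- the order
    have key : ∀ j : ℕ, (π (tor σ l₀)) ^ j = 1 ↔ 40 ∣ j := by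
      intro j
      rw [← map_pow, ← map_pow, ker_tor_iff E, E.pow]
      have h1 : ((l₀ ^ j : Fˣ) : F) ^ 2 = ((l₀ ^ j : Fˣ) : F) ^ 11 ↔ l₀ ^ (j * 2) = l₀ ^ (j * 11) := by
        rw [← Units.val_pow_eq_pow_val, ← Units.val_pow_eq_pow_val, Units.val_inj, ← pow_mul, ← pow_mul]
      rw [h1, pow_inj_mod, hord']
      omega
    exact Nat.dvd_antisymm (orderOf_dvd_of_pow_eq_one ((key 40).2 dvd_rfl)) ((key _).1 (pow_orderOf_eq_one _))
  · exact (E.data.normalizer_eq (E.unip_ne (by norm_num))) ▸ (PSU.two_mem l₀).1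
  · have h1 : (wel σ)⁻¹ = wel σ := wel_inv
    rw [← map_inv, ← map_mul, ← map_mul, h1, wel_tor, ← map_zpow, ← map_zpow]
    congr 2
    apply Units.ext
    rw [zpow_neg]
    show ((ci σ l₀ : Fˣ) : F) = _
    rw [HKS.EndU.ci_val, E.pow, Units.val_inv_eq_inv_val]
    norm_cast

end Cfsg.Agent.H733.JM.PsuGen
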