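import Cfsg.Agent.H733.JM.J4Forty
import Cfsg.Agent.H733.JM.PsuGen
import Cfsg.Agent.H860.JM.Cj
import Cfsg.Agent.H860.JM.Defs
import Cfsg.Agent.S1703

/-!
# S5580, Part III: one class of maximal subgroups of `J4` with socle `U₃(11)` (helper733)
-/

set_option autoImplicit false

namespace Cfsg.Agent.H733.JM.U311

open Cfsg Subgroup Cfsg.Agent.H860.JM
open Cfsg.Agent.H859.NU (U)
open Cfsg.Agent.H859.SylEleven (N)

/-- the group `Spor.J4` -/
local notation "𝒢" => Cfsg.Spor.J4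

instance finite_J4 : Finite 𝒢 := H858.FixJ4.facts.1
instance simple_J4 : IsSimpleGroup 𝒢 := Cfsg.Agent.S1703.result.1

/-- generators of a subgroup isomorphic to `U₃(11)` -/
structure Pos (S P : Subgroup 𝒢) (t w : 𝒢) : Prop where
  card : Nat.card P = 11 ^ 3
  order : orderOf t = 40
  norm : t ∈ normalizer (P : Set 𝒢)
  conj : w * t * w⁻¹ = t ^ (-11 : ℤ)
  eq : closure ((P : Set 𝒢) ∪ {t, w}) = S

theorem exists_pos {S : Subgroup 𝒢} {F : Type} [Field F] [Fintype F] (hF : Fintype.card F = 121)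
    (e : S ≃* Cfsg.PSU 3 F 11) : ∃ (P : Subgroup 𝒢) (t w : 𝒢), Pos S P t w := by
  obtain ⟨P, t, w, h1, h2, h3, h4, h5⟩ := PsuGen.exists_gen hF
  let φ : Cfsg.PSU 3 F 11 →* 𝒢 := S.subtype.comp e.symm.toMonoidHom
  have hφ : Function.Injective φ := fun x y h => e.symm.injective (Subtype.ext h)
  refine ⟨P.map φ, φ t, φ w, ?_, ?_, ?_, ?_, ?_⟩
  · rw [← h1]
    exact (Nat.card_congr (P.equivMapOfInjective φ hφ).toEquiv).symm
  · rw [orderOf_injective φ hφ, h2]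
  · exact Subgroup.le_normalizer_map φ ⟨t, h3, rfl⟩
  · rw [← map_inv, ← map_mul, ← map_mul, h4, map_zpow]
  · have h6 : ((P.map φ : Subgroup 𝒢) : Set 𝒢) ∪ {φ t, φ w} = φ '' ((P : Set (Cfsg.PSU 3 F 11)) ∪ {t, w}) := by
      rw [Set.image_union, Set.image_pair, Subgroup.coe_map]
    rw [h6, ← MonoidHom.map_closure, h5]
    ext x
    constructor
    · rintro ⟨y, -, rfl⟩
      exact (e.symm y).2
    · intro hx
      refine ⟨e ⟨x, hx⟩, mem_top _, ?_⟩
      show ((e.symm (e ⟨x, hx⟩) : S) : 𝒢) = x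
      rw [MulEquiv.symm_apply_apply]

theorem Pos.cj {S P : Subgroup 𝒢} {t w : 𝒢} (h : Pos S P t w) (g : 𝒢) :
    Pos (cj g S) (cj g P) (g * t * g⁻¹) (g * w * g⁻¹) where
  card := by rw [card_cj, h.card]
  order := by
    rw [← h.order]
    exact MulEquiv.orderOf_eq (MulAut.conj g) t
  norm := by
    rw [normalizer_cj]
    exact ⟨t, h.norm, rfl⟩
  conj := by
    rw [conj_zpow, ← h.conj]
    group
  eq := by
    rw [← h.eq]
    have h6 : ((H860.JM.cj g P : Subgroup 𝒢) : Set 𝒢) ∪ {g * t * g⁻¹, g * w * g⁻¹} =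
        (MulAut.conj g).toMonoidHom '' ((P : Set 𝒢) ∪ {t, w}) := by
      rw [Set.image_union, Set.image_pair]
      rfl
    rw [h6, ← MonoidHom.map_closure]

/-- the case of two subgroups with the same Sylow 11-subgroup -/
theorem exists_cj_same {S S' : Subgroup 𝒢} {t w t' w' : 𝒢} (h : Pos S U t w) (h' : Pos S' U t' w') :
    ∃ n : 𝒢, H860.JM.cj n S' = S := by
  obtain ⟨n, hn, hmem⟩ := ConjAbs.exists_conj_mem (N := N) (by rw [H859.SylEleven.card_N]; norm_num)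
    J4Forty.two_group (t := t) (t' := t') h.norm h'.norm h.order h'.order
  have hcj : H860.JM.cj n U = U := cj_eq_iff.2 hn
  have h2 := h'.cj n
  rw [hcj] at h2
  refine ⟨n, ?_⟩
  rw [← h2.eq, ← h.eq]
  exact ConjAbs.closure_eq (h.order.trans h2.order.symm) hmem h.conj h2.conj (J4Forty.centralizer_le h.order)

/-- Sylow's theorem -/
theorem exists_cj_U {P : Subgroup 𝒢} (hP : Nat.card P = 11 ^ 3) : ∃ g : 𝒢, H860.JM.cj g P = U := by
  have f11 : Fact (Nat.Prime 11) := ⟨by norm_num⟩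
  have h1 : IsPGroup 11 P := IsPGroup.of_card hP
  have h2 : ¬ 11 ∣ P.index := by
    intro h
    have h1 := P.card_mul_index
    rw [hP, H858.FixJ4.card_J4] at h1
    omega
  obtain ⟨g, hg⟩ := MulAction.exists_smul_eq 𝒢 (h1.toSylow h2)
    (H859.SylEleven.isPGroup_U.toSylow H859.SylEleven.not_dvd_U)
  exact ⟨g, congrArg (fun S : Sylow 11 𝒢 => (S : Subgroup 𝒢)) hg⟩

theorem exists_cj {S S' P P' : Subgroup 𝒢} {t w t' w' : 𝒢} (h : Pos S P t w) (h' : Pos S' P' t' w') :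
    ∃ g : 𝒢, S' = H860.JM.cj g S := by
  obtain ⟨g, hg⟩ := exists_cj_U h.card
  obtain ⟨g', hg'⟩ := exists_cj_U h'.card
  have k1 := h.cj g
  have k2 := h'.cj g'
  rw [hg] at k1
  rw [hg'] at k2
  obtain ⟨n, hn⟩ := exists_cj_same k1 k2
  refine ⟨(n * g')⁻¹ * g, ?_⟩
  rw [← cj_cj (n * g')⁻¹ g S, ← hn, cj_cj n g' S', cj_cj, inv_mul_cancel]
  exact (cj_eq_iff.2 (one_mem _)).symm

/-! ### maximal subgroups -/

theorem eq_normalizer {M S : Subgroup 𝒢} (hN : NL M S) : M = normalizer (S : Set 𝒢) := by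
  by_contra h
  have h1 : normalizer (S : Set 𝒢) = ⊤ := hN.coatom.2 _ (lt_of_le_of_ne hN.norm h)
  have h2 : S.Normal := normalizer_eq_top_iff.1 h1
  rcases h2.eq_bot_or_eq_top with h3 | h3
  · apply hN.nab
    subst h3
    exact ⟨⟨fun a b => Subsingleton.elim _ _⟩⟩
  · exact hN.coatom.1 (top_le_iff.1 (h3 ▸ hN.le))

/-- **S5580, Part III, `U₃(11)`**: the maximal subgroups of `J4` with socle `U₃(11)` form one class -/
theorem one_U311 {F : Type} [Field F] [Fintype F] (hF : Fintype.card F = 121) : OneCl (Cfsg.PSU 3 F 11) := by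
  rintro M S M' S' hN hN' ⟨e⟩ ⟨e'⟩
  obtain ⟨P, t, w, h⟩ := exists_pos hF e
  obtain ⟨P', t', w', h'⟩ := exists_pos hF e'
  obtain ⟨g, hg⟩ := exists_cj h h'
  refine ⟨g, ?_⟩
  rw [eq_normalizer hN', eq_normalizer hN, ← normalizer_cj, ← hg]

end Cfsg.Agent.H733.JM.U311
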